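import Cfsg.Agent.H554.LieD

/-!
# The minimal parabolic subgroups of `PΩ₈⁺(2)` (helper583, task 5645)

* `exists_par_of_rgd` : a root group datum with trivial torus and simple root groups of order `q`: every Sylow
  `p`-subgroup has `|I|` different overgroups of index `q + 1` generating the group;
* `tor_eq_bot` : the torus of `PΩ⁺_{2m}(2)` is trivial;
* `exists_par` : the case `PΩ⁺_{2(n+2)}(2)`.
-/

set_option autoImplicit false
set_option linter.unusedSectionVars false

namespace Cfsg.Agent.H583.D4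

open CoxeterSystem Cfsg.Agent.ChevalleyStructure.CoxeterGeom Cfsg.Agent.Tits.Roots
open Cfsg.Agent.Nodes Cfsg.Agent.Nodes.Comb Cfsg.Agent.Nodes.Reps Cfsg.Agent.Nodes.BNOf
open Cfsg.Agent.Nodes.StabComb Cfsg.Agent.Nodes.Bruhat Cfsg.Agent.Nodes.LeviDec Cfsg.Agent.H554.RG

theorem exists_par_of_rgd {I W S : Type*} [Fintype I] [DecidableEq I] [Group W] [Group S] [Finite W] [Finite S]
    {M : CoxeterMatrix I} {cs : CoxeterSystem M W} {A : I → I → ℤ} {h : IsCartan M A} {p : ℕ} [Fact p.Prime]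
    {n : I → S} {X : (I → ℤ) → Subgroup S} (R : RGD cs h p ⊥ n X) (hGG : GG cs h ⊥ X = ⊤) [Nonempty I] {q : ℕ}
    (hX : ∀ i, Nat.card (X (sr i)) = q) (P : Sylow p S) :
    ∃ N : I → Subgroup S, Function.Injective N ∧ (∀ i, (P : Subgroup S) ≤ N i) ∧
      (∀ i, (P : Subgroup S).relIndex (N i) = q + 1) ∧ ⨆ i, N i = ⊤ := by
  obtain ⟨Q, hQ⟩ := exists_sylow R hGG
  have hB : RGD.B cs h ⊥ X = (Q : Subgroup S) := by
    rw [hQ]
    exact bot_sup_eq _
  obtain ⟨g, rfl⟩ := MulAction.exists_smul_eq S Q P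
  have hinj := (MulAut.conj g).injective
  let N : I → Subgroup S := fun i => PJ cs h ⊥ X {i}
  have hle : ∀ i, (Q : Subgroup S) ≤ N i := fun i => by rw [← hB]; exact B_le_PJ
  have htop : ⨆ i, N i = ⊤ := by
    have h1 : RGD.B cs h ⊥ X ≤ ⨆ i, N i :=
      le_trans (by rw [hB]; exact hle (Classical.arbitrary I)) (le_iSup N (Classical.arbitrary I))
    have h2 := eq_PJ R hGG h1
    rw [h2, PJ_eq_top_iff R hGG, Set.eq_univ_iff_forall]
    intro i
    exact le_iSup N i ((n_mem_PJ_iff R).2 rfl)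
  refine ⟨fun i => (N i).map (MulAut.conj g).toMonoidHom, ?_, ?_, ?_, ?_⟩
  · intro i j hij
    have h1 : N i = N j := Subgroup.map_injective hinj hij
    have h2 := PJ_injective R h1
    exact Set.singleton_injective h2
  · intro i
    rw [Sylow.coe_subgroup_smul]
    exact Subgroup.map_mono (hle i)
  · intro i
    rw [Sylow.coe_subgroup_smul]
    change ((Q : Subgroup S).map (MulAut.conj g).toMonoidHom).relIndex ((N i).map (MulAut.conj g).toMonoidHom) = q + 1
    rw [Subgroup.relIndex_map_map_of_injective _ _ hinj, ← hB, relIndex_B_PJ_singleton R i, hX]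
  · rw [← Subgroup.map_iSup, htop, Subgroup.map_top_of_surjective _ (MulAut.conj g).surjective]

theorem exists_par_congr {I : Type*} {S : Type*} {S' : Type*} [Group S] [Group S'] [Finite S'] {p q : ℕ} [Fact p.Prime] (e : S' ≃* S)
    (hS : ∀ P : Sylow p S, ∃ N : I → Subgroup S, Function.Injective N ∧ (∀ i, (P : Subgroup S) ≤ N i) ∧
      (∀ i, (P : Subgroup S).relIndex (N i) = q) ∧ ⨆ i, N i = ⊤) (P : Sylow p S') :
    ∃ N : I → Subgroup S', Function.Injective N ∧ (∀ i, (P : Subgroup S') ≤ N i) ∧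
      (∀ i, (P : Subgroup S').relIndex (N i) = q) ∧ ⨆ i, N i = ⊤ := by
  obtain ⟨N, h1, h2, h3, h4⟩ := hS (P.mapSurjective (f := e.toMonoidHom) e.surjective)
  have hP : (P : Subgroup S') = ((P.mapSurjective (f := e.toMonoidHom) e.surjective : Sylow p S) :
      Subgroup S).map e.symm.toMonoidHom := by
    change (P : Subgroup S') = ((P : Subgroup S').map e.toMonoidHom).map e.symm.toMonoidHom
    rw [Subgroup.map_map]
    have : e.symm.toMonoidHom.comp e.toMonoidHom = MonoidHom.id S' := by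
      ext x
      exact e.symm_apply_apply x
    rw [this, Subgroup.map_id]
  refine ⟨fun i => (N i).map e.symm.toMonoidHom, ?_, ?_, ?_, ?_⟩
  · intro i j hij
    exact h1 (Subgroup.map_injective e.symm.injective hij)
  · intro i
    rw [hP]
    exact Subgroup.map_mono (h2 i)
  · intro i
    rw [hP, Subgroup.relIndex_map_map_of_injective _ _ e.symm.injective, h3]
  · rw [← Subgroup.map_iSup, h4, Subgroup.map_top_of_surjective _ e.symm.surjective]

open Cfsg.Agent.Nodes.TypeC (wt ng ng_ng ng_fst wt_ng wt_apply)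
open Cfsg.Agent.Nodes.TypeD
open Cfsg.Agent.Nodes.RGDLib Cfsg.Agent.Nodes.WittInst Cfsg.Agent.Nodes.WittRoot
open Cfsg.Agent.KFacts.SLRow.OmegaPlus Cfsg.Agent.LieClassical.OrthForms
open Cfsg.Agent.TitsThree.KSideO Cfsg.Agent.TitsThree.StdData Cfsg.Agent.LieClassical.OrthSimple
  Cfsg.Agent.LieClassical.OrthFinite Cfsg.Agent.TitsThree.WBridge Cfsg.Agent.TitsThree.WittFrame
open Cfsg.Agent.Nodes.WittRGD (Tor mem_Tor)
open Cfsg.Agent.LieClassical Cfsg.Agent.LieClassical.OrthCore Cfsg.Agent.LieClassical.OrthTrans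

theorem eq_one_of_ne : ∀ l : ZMod 2, l ≠ 0 → l = 1 := by decide

theorem tor_eq_bot (m : ℕ) : Tor (toFrame (wplus m (ZMod 2))) (E (plusForm m (ZMod 2))) = ⊥ := by
  rw [eq_bot_iff]
  rintro g ⟨-, hg⟩
  rw [Subgroup.mem_bot]
  have h1 : ∀ x, g ((toFrame (wplus m (ZMod 2))).b x) = (toFrame (wplus m (ZMod 2))).b x := by
    intro x
    obtain ⟨l, hl, e⟩ := hg x
    have h2 : l = 1 := eq_one_of_ne l hl
    rw [e, h2, one_smul]
    rfl
  apply LinearEquiv.toLinearMap_injective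
  apply LinearMap.pi_ext'
  intro j
  apply LinearMap.ext_ring
  rcases j with j | j
  · exact h1 (j, true)
  · exact h1 (j, false)

theorem exists_par (n : ℕ) (hn : 3 ≤ n + 2) (P : Sylow 2 (Cfsg.POmega (ZMod 2) (Cfsg.quadFormPlus (n + 2) (ZMod 2)))) :
    ∃ M : Fin (n + 2) → Subgroup (Cfsg.POmega (ZMod 2) (Cfsg.quadFormPlus (n + 2) (ZMod 2))),
      Function.Injective M ∧ (∀ i, (P : Subgroup _) ≤ M i) ∧ (∀ i, (P : Subgroup _).relIndex (M i) = 3) ∧
      ⨆ i, M i = ⊤ := by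
  revert P
  rw [← coe_plusForm]
  intro P
  have : Fact (Nat.Prime 2) := ⟨Nat.prime_two⟩
  have hG := good_plus (n + 2) (ZMod 2) hn
  let cs := (M n).toCoxeterSystem
  have : Finite (M n).Group := finite_W cs
  have R := rgdD_model (wplus (n + 2) (ZMod 2)) hG (amb_plus _) (adm_plus _) (p := 2) cs
  have hfin : Finite (Cfsg.POmega (ZMod 2) ⇑(plusForm (n + 2) (ZMod 2))) := inferInstance
  have hX := fun x hx => card_XD (wplus (n + 2) (ZMod 2)) hG cs (x := x) hx
  have hT : ((Tor (toFrame (wplus (n + 2) (ZMod 2))) (E (plusForm (n + 2) (ZMod 2)))).subgroupOf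
      (E (plusForm (n + 2) (ZMod 2)))).map (toPOmega hG) = ⊥ := by
    rw [tor_eq_bot, Subgroup.bot_subgroupOf, Subgroup.map_bot]
  rw [hT] at R
  have hGG : GG cs (isCartan n) ⊥ (XD (wplus (n + 2) (ZMod 2)) (toPOmega hG)) = ⊤ := by
    rw [eq_top_iff, ← G1D_eq_top (wplus (n + 2) (ZMod 2)) (toPOmega hG) (toPOmega_surjective hG) (adm_plus _) cs]
    exact RGD.Sup_le fun x hx => X_le_GG hx
  exact exists_par_of_rgd R hGG (q := 2) (fun i => by rw [hX _ (isRoot_sr cs _ _), Nat.card_zmod]) P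

end Cfsg.Agent.H583.D4
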